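import Mathlib
import Cfsg.Agent.Lib.SylowFix.Basic

/-!
The slack `(p-1)|Y| - (2p-1)|fix_Y(P)|` for actions of groups generated by `p`-elements.
-/

set_option autoImplicit false

namespace Cfsg.Agent.Lib.SylowFix

open Subgroup Function Finset

open scoped Classical

variable {G : Type*} [Group G] {p : ℕ} {X : Type*}

/-- The fibre weight attached to the `P`-containment of a subgroup-valued map. -/
noncomputable def wt (p : ℕ) (P : Prop) : ℤ := ((p : ℤ) - 1) - if P then (2 * (p : ℤ) - 1) else 0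

/-- Slack of a set of subgroups. -/
noncomputable def slack (p : ℕ) (P : Subgroup G) (S : Finset (Subgroup G)) : ℤ :=
  ∑ L ∈ S, wt p (P ≤ L)

/-- Slack of a subset of a `G`-set. -/
noncomputable def aslack (p : ℕ) (φ : G →* Equiv.Perm X) (P : Subgroup G) (Y : Finset X) : ℤ :=
  ∑ y ∈ Y, wt p (∀ g ∈ P, φ g y = y)

/-- Stabiliser of `y` in `K`. -/
def stab (φ : G →* Equiv.Perm X) (K : Subgroup G) (y : X) : Subgroup G where
  carrier := {g | g ∈ K ∧ φ g y = y}
  one_mem' := ⟨one_mem _, by simp⟩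
  mul_mem' := by
    rintro a b ⟨ha, ha'⟩ ⟨hb, hb'⟩
    exact ⟨mul_mem ha hb, by rw [map_mul, Equiv.Perm.mul_apply, hb', ha']⟩
  inv_mem' := by
    rintro a ⟨ha, ha'⟩
    refine ⟨inv_mem ha, ?_⟩
    rw [map_inv, Equiv.Perm.inv_def, Equiv.symm_apply_eq, ha']

/-- The `K`-orbit of `y` inside `Y`. -/
noncomputable def orb (φ : G →* Equiv.Perm X) (K : Subgroup G) (Y : Finset X) (y : X) : Finset X :=
  Y.filter fun z => ∃ k ∈ K, φ k y = z

theorem invar_inv {φ : G →* Equiv.Perm X} {K : Subgroup G} {Y : Finset X}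
    (hY : ∀ k ∈ K, ∀ y ∈ Y, φ k y ∈ Y) {k : G} (hk : k ∈ K) (y : X) :
    φ k y ∈ Y ↔ y ∈ Y :=
  ⟨fun h => by simpa using hY k⁻¹ (inv_mem hk) _ h, hY k hk y⟩

theorem orb_self {φ : G →* Equiv.Perm X} {K : Subgroup G} {Y : Finset X} {y : X} (hy : y ∈ Y) :
    y ∈ orb φ K Y y := Finset.mem_filter.2 ⟨hy, 1, one_mem _, by simp⟩

theorem orb_invar {φ : G →* Equiv.Perm X} {K : Subgroup G} {Y : Finset X}
    (hY : ∀ k ∈ K, ∀ y ∈ Y, φ k y ∈ Y) (y : X) :
    ∀ k ∈ K, ∀ z ∈ orb φ K Y y, φ k z ∈ orb φ K Y y := by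
  intro k hk z hz
  obtain ⟨hz, j, hj, rfl⟩ := Finset.mem_filter.1 hz
  exact Finset.mem_filter.2 ⟨hY k hk _ hz, k * j, mul_mem hk hj, by simp⟩

theorem sdiff_invar {φ : G →* Equiv.Perm X} {K : Subgroup G} {Y O : Finset X}
    (hY : ∀ k ∈ K, ∀ y ∈ Y, φ k y ∈ Y) (hO : ∀ k ∈ K, ∀ y ∈ O, φ k y ∈ O) :
    ∀ k ∈ K, ∀ y ∈ Y \ O, φ k y ∈ Y \ O := by
  intro k hk y hy
  rw [Finset.mem_sdiff] at hy ⊢
  exact ⟨hY k hk y hy.1, fun h => hy.2 ((invar_inv hO hk y).1 h)⟩

/-- Induction over the orbits of an invariant set. -/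
theorem orbit_induction (φ : G →* Equiv.Perm X) (K : Subgroup G) {motive : Finset X → Prop}
    (empty : motive ∅)
    (step : ∀ Y : Finset X, (∀ k ∈ K, ∀ y ∈ Y, φ k y ∈ Y) → ∀ y ∈ Y,
      motive (Y \ orb φ K Y y) → motive Y)
    {Y : Finset X} (hY : ∀ k ∈ K, ∀ y ∈ Y, φ k y ∈ Y) : motive Y := by
  induction h : Y.card using Nat.strong_induction_on generalizing Y with
  | _ n ih =>
    rcases Y.eq_empty_or_nonempty with rfl | ⟨y, hy⟩
    · exact empty
    refine step Y hY y hy (ih _ ?_ (sdiff_invar hY (orb_invar hY y)) rfl)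
    rw [← h]
    refine Finset.card_lt_card (Finset.sdiff_ssubset ?_ ⟨y, orb_self hy⟩)
    exact Finset.filter_subset _ _

variable [Finite G] [hp : Fact p.Prime]

/-- A `p`-element moves a point in a cycle of length at least `p`. -/
theorem prime_le_card_of_moved {φ : G →* Equiv.Perm X} {x : G} (hx : IsPEl p x) {O : Finset X}
    (hO : ∀ z ∈ O, φ x z ∈ O) {y : X} (hy : y ∈ O) (hne : φ x y ≠ y) : p ≤ O.card := by
  obtain ⟨k, hk⟩ := hx
  have hper : IsPeriodicPt (φ x) (p ^ k) y := by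
    show (φ x)^[p ^ k] y = y
    rw [← Equiv.Perm.coe_pow, ← map_pow, hk, map_one, Equiv.Perm.one_apply]
  obtain ⟨i, -, hi⟩ := (Nat.dvd_prime_pow hp.out).1 hper.minimalPeriod_dvd
  have hi0 : i ≠ 0 := by
    rintro rfl
    rw [pow_zero, minimalPeriod_eq_one_iff_isFixedPt] at hi
    exact hne hi
  have hpm : p ≤ minimalPeriod (φ x) y := by
    rw [hi]; exact Nat.le_self_pow hi0 p
  refine hpm.trans ?_
  rw [← Finset.card_range (minimalPeriod (φ x) y)]
  have hmem : ∀ n : ℕ, (φ x)^[n] y ∈ O := by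
    intro n
    induction n with
    | zero => simpa using hy
    | succ n ih => rw [iterate_succ_apply']; exact hO _ ih
  refine Finset.card_le_card_of_injOn (fun n => (φ x)^[n] y) (fun n _ => hmem n) ?_
  · rw [Finset.coe_range]
    exact iterate_injOn_Iio_minimalPeriod

/-- Orbits of a group generated by `p`-elements without fixed points have at least `p` points. -/
theorem prime_le_card_invar {φ : G →* Equiv.Perm X} {K : Subgroup G} (hK : pcl p K = K)
    {O : Finset X} (hO : ∀ k ∈ K, ∀ z ∈ O, φ k z ∈ O) {y : X} (hy : y ∈ O)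
    (hnf : ∃ k ∈ K, φ k y ≠ y) : p ≤ O.card := by
  by_contra hlt
  obtain ⟨k, hk, hne⟩ := hnf
  have : pcl p K ≤ stab φ K y := pcl_le_of_forall fun x hx hxp => ⟨hx, by
    by_contra h
    exact hlt (prime_le_card_of_moved hxp (hO x hx) hy h)⟩
  exact hne (this (hK.symm ▸ hk)).2

theorem slack_congr {K : Subgroup G} {S : Finset (Subgroup G)}
    (hS : ∀ k ∈ K, ∀ L ∈ S, cj k L ∈ S) {P Q : Sylow p G} (hP : (P : Subgroup G) ≤ K)
    (hQ : (Q : Subgroup G) ≤ K) : slack p (P : Subgroup G) S = slack p (Q : Subgroup G) S := by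
  obtain ⟨k, hk, e⟩ := exists_conj_sylow hP hQ
  refine Finset.sum_bij' (fun L _ => cj k L) (fun L _ => cj k⁻¹ L) (fun L hL => hS k hk L hL)
    (fun L hL => hS k⁻¹ (inv_mem hk) L hL) (fun L _ => ?_) (fun L _ => ?_) (fun L _ => ?_)
  · simp
  · simp
  · refine congrArg (wt p) (propext ⟨fun h => e ▸ cj_mono h, fun h => ?_⟩)
    rw [← e, cj_inv_le] at h
    simpa using h

/-- Positivity and covering for invariant families of proper `p`-generated subgroups of `K`. -/
def Good (p : ℕ) (K : Subgroup G) (S : Finset (Subgroup G)) : Prop :=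
  (∀ L ∈ S, L < K ∧ pcl p L = L ∧ Full p L) ∧ ∀ k ∈ K, ∀ L ∈ S, cj k L ∈ S

/-- The main statement for the group `K`. -/
def MStmt (p : ℕ) (K : Subgroup G) : Prop :=
  ∀ (S : Finset (Subgroup G)), Good p K S → ∀ P : Sylow p G, (P : Subgroup G) ≤ K →
    0 ≤ slack p (P : Subgroup G) S ∧
    ∀ j : ℕ, slack p (P : Subgroup G) S < (p : ℤ) * ((p : ℤ) - j) →
      ∀ T : Finset (Subgroup G), T ⊆ S → T.card ≤ j →
        ∃ Q : Sylow p G, (Q : Subgroup G) ≤ K ∧ ∀ L ∈ T, (Q : Subgroup G) ≤ L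

variable {φ : G →* Equiv.Perm X} {K : Subgroup G} {Y : Finset X}

/-- The `p`-part generated by a stabiliser. -/
def psi (p : ℕ) (φ : G →* Equiv.Perm X) (K : Subgroup G) (y : X) : Subgroup G := pcl p (stab φ K y)

theorem psi_le (y : X) : psi p φ K y ≤ stab φ K y := pcl_le _

theorem fix_iff_le_psi {P : Sylow p G} (hP : (P : Subgroup G) ≤ K) (y : X) :
    (∀ g ∈ (P : Subgroup G), φ g y = y) ↔ (P : Subgroup G) ≤ psi p φ K y :=
  ⟨fun h => sylow_le_pcl fun g hg => ⟨hP hg, h g hg⟩, fun h g hg => (psi_le y (h hg)).2⟩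

theorem psi_smul {k : G} (hk : k ∈ K) (y : X) : psi p φ K (φ k y) = cj k (psi p φ K y) := by
  rw [psi, psi, ← pcl_cj]
  congr 1
  ext g
  rw [mem_cj]
  show g ∈ K ∧ φ g (φ k y) = φ k y ↔ k⁻¹ * g * k ∈ K ∧ φ (k⁻¹ * g * k) y = y
  have h1 : φ (k⁻¹ * g * k) y = y ↔ φ g (φ k y) = φ k y := by
    simp only [map_mul, map_inv, Equiv.Perm.mul_apply, Equiv.Perm.inv_def, Equiv.symm_apply_eq]
  rw [h1]
  constructor
  · rintro ⟨a, b⟩; exact ⟨mul_mem (mul_mem (inv_mem hk) a) hk, b⟩
  · rintro ⟨a, b⟩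
    refine ⟨?_, b⟩
    have := mul_mem (mul_mem hk a) (inv_mem hk)
    simpa [mul_assoc] using this

theorem psi_lt (hK : pcl p K = K) {y : X} (h : ∃ k ∈ K, φ k y ≠ y) : psi p φ K y < K := by
  refine lt_of_le_of_ne ((psi_le y).trans fun g hg => hg.1) fun e => ?_
  obtain ⟨k, hk, hne⟩ := h
  exact hne (psi_le y (by rw [e]; exact hk)).2

/-- Slack is non-negative for fixed-point-free actions, and small slack gives covering. -/
theorem act (hM : MStmt p K) (hK : pcl p K = K) (P : Sylow p G) (hP : (P : Subgroup G) ≤ K)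
    (hY : ∀ k ∈ K, ∀ y ∈ Y, φ k y ∈ Y) (hnf : ∀ y ∈ Y, ∃ k ∈ K, φ k y ≠ y) :
    0 ≤ aslack p φ (P : Subgroup G) Y ∧
    ∀ j : ℕ, aslack p φ (P : Subgroup G) Y < (p : ℤ) * ((p : ℤ) - j) →
      ∀ T : Finset X, T ⊆ Y → T.card ≤ j →
        ∃ Q : Sylow p G, (Q : Subgroup G) ≤ K ∧ ∀ y ∈ T, ∀ g ∈ (Q : Subgroup G), φ g y = y := by
  classical
  have h2 : (2 : ℤ) ≤ p := by exact_mod_cast hp.out.two_le
  let Good' : Finset X → Prop := fun Z => ∀ z ∈ Z, Full p (psi p φ K z)
  let sg : Finset X → ℤ := fun Z => slack p (P : Subgroup G) (Z.image (psi p φ K))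
  -- orbitwise estimates
  have main : (∀ y ∈ Y, ∃ k ∈ K, φ k y ≠ y) →
      0 ≤ aslack p φ (P : Subgroup G) Y ∧ (Good' Y → sg Y ≤ aslack p φ (P : Subgroup G) Y) ∧
        (¬ Good' Y → (p : ℤ) * ((p : ℤ) - 1) ≤ aslack p φ (P : Subgroup G) Y) := by
    refine orbit_induction φ K (motive := fun Y => (∀ y ∈ Y, ∃ k ∈ K, φ k y ≠ y) →
      0 ≤ aslack p φ (P : Subgroup G) Y ∧ (Good' Y → sg Y ≤ aslack p φ (P : Subgroup G) Y) ∧
        (¬ Good' Y → (p : ℤ) * ((p : ℤ) - 1) ≤ aslack p φ (P : Subgroup G) Y)) ?_ ?_ hY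
    · intro _
      refine ⟨by simp [aslack], fun _ => by simp [aslack, sg, slack], fun h => ?_⟩
      exact absurd (fun z hz => absurd hz (Finset.notMem_empty z)) h
    intro Y hY y hy ih hnf
    set O := orb φ K Y y with hOdef
    have hOY : O ⊆ Y := Finset.filter_subset _ _
    have hO := orb_invar hY y
    obtain ⟨r0, rg, rb⟩ := ih fun z hz => hnf z (Finset.mem_sdiff.1 hz).1
    have split : aslack p φ (P : Subgroup G) Y =
        aslack p φ (P : Subgroup G) (Y \ O) + aslack p φ (P : Subgroup G) O :=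
      (Finset.sum_sdiff hOY).symm
    by_cases hf : Full p (psi p φ K y)
    · have hfull : ∀ z ∈ O, Full p (psi p φ K z) := by
        intro z hz
        obtain ⟨-, k, hk, rfl⟩ := Finset.mem_filter.1 hz
        obtain ⟨Q, hQ⟩ := hf
        refine ⟨k • Q, ?_⟩
        rw [psi_smul hk, Sylow.coe_subgroup_smul]
        exact cj_mono hQ
      set I := O.image (psi p φ K) with hIdef
      have hI : Good p K I := by
        constructor
        · intro L hL
          obtain ⟨z, hz, rfl⟩ := Finset.mem_image.1 hL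
          exact ⟨psi_lt hK (hnf z (hOY hz)), pcl_pcl _, hfull z hz⟩
        · intro k hk L hL
          obtain ⟨z, hz, rfl⟩ := Finset.mem_image.1 hL
          exact Finset.mem_image.2 ⟨φ k z, hO k hk z hz, psi_smul hk z⟩
      have hI0 := (hM I hI P hP).1
      set c := (O.filter fun z => psi p φ K z = psi p φ K y).card with hc
      have hcc : ∀ L ∈ I, (O.filter fun z => psi p φ K z = L).card = c := by
        intro L hL
        obtain ⟨z, hz, rfl⟩ := Finset.mem_image.1 hL
        obtain ⟨-, k, hk, rfl⟩ := Finset.mem_filter.1 hz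
        refine (Finset.card_bij' (fun w _ => φ k w) (fun w _ => φ k⁻¹ w) (fun w hw => ?_)
          (fun w hw => ?_) (fun w _ => by simp) (fun w _ => by simp)).symm
        · obtain ⟨hw, e⟩ := Finset.mem_filter.1 hw
          exact Finset.mem_filter.2 ⟨hO k hk w hw, by rw [psi_smul hk, e, ← psi_smul hk]⟩
        · obtain ⟨hw, e⟩ := Finset.mem_filter.1 hw
          refine Finset.mem_filter.2 ⟨hO k⁻¹ (inv_mem hk) w hw, ?_⟩
          rw [psi_smul (inv_mem hk), e, ← psi_smul (inv_mem hk)]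
          simp
      have hc1 : 1 ≤ c := Finset.card_pos.2 ⟨y, Finset.mem_filter.2 ⟨orb_self hy, rfl⟩⟩
      have hsum : aslack p φ (P : Subgroup G) O = (c : ℤ) * slack p (P : Subgroup G) I := by
        rw [aslack, slack, Finset.mul_sum, ← Finset.sum_fiberwise_of_maps_to (g := psi p φ K)
          (fun z hz => Finset.mem_image_of_mem _ hz)]
        refine Finset.sum_congr rfl fun L hL => ?_
        rw [Finset.sum_congr rfl (g := fun _ => wt p ((P : Subgroup G) ≤ L)) (fun z hz => ?_)]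
        · rw [Finset.sum_const, hcc L hL, nsmul_eq_mul]
        · rw [← (Finset.mem_filter.1 hz).2]
          exact congrArg (wt p) (propext (fix_iff_le_psi hP z))
      have hOge : slack p (P : Subgroup G) I ≤ aslack p φ (P : Subgroup G) O := by
        rw [hsum]
        exact le_mul_of_one_le_left hI0 (by exact_mod_cast hc1)
      refine ⟨by linarith, fun hg => ?_, fun hb => ?_⟩
      · have hgr : Good' (Y \ O) := fun z hz => hg z (Finset.mem_sdiff.1 hz).1
        have hu : Y.image (psi p φ K) = (Y \ O).image (psi p φ K) ∪ I := by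
          rw [hIdef, ← Finset.image_union, Finset.sdiff_union_of_subset hOY]
        by_cases hd : Disjoint ((Y \ O).image (psi p φ K)) I
        · calc sg Y = sg (Y \ O) + slack p (P : Subgroup G) I := by
                simp only [sg, slack, hu]; exact Finset.sum_union hd
            _ ≤ _ := by rw [split]; exact add_le_add (rg hgr) hOge
        · have hsub : I ⊆ (Y \ O).image (psi p φ K) := by
            obtain ⟨L, hL1, hL2⟩ := Finset.not_disjoint_iff.1 hd
            obtain ⟨w, hw, rfl⟩ := Finset.mem_image.1 hL1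
            obtain ⟨z, hz, e⟩ := Finset.mem_image.1 hL2
            intro L' hL'
            obtain ⟨z', hz', rfl⟩ := Finset.mem_image.1 hL'
            obtain ⟨-, k, hk, rfl⟩ := Finset.mem_filter.1 hz
            obtain ⟨-, k', hk', rfl⟩ := Finset.mem_filter.1 hz'
            refine Finset.mem_image.2 ⟨φ (k' * k⁻¹) w,
              sdiff_invar hY hO _ (mul_mem hk' (inv_mem hk)) w hw, ?_⟩
            rw [psi_smul (mul_mem hk' (inv_mem hk)), ← e,
              ← psi_smul (mul_mem hk' (inv_mem hk))]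
            simp
          calc sg Y = sg (Y \ O) := by
                simp only [sg, hu, Finset.union_eq_left.2 hsub]
            _ ≤ _ := by rw [split]; linarith [rg hgr]
      · have : ¬ Good' (Y \ O) := fun hg => hb fun z hz =>
          if h : z ∈ O then hfull z h else hg z (Finset.mem_sdiff.2 ⟨hz, h⟩)
        linarith [rb this]
    · have hz : ∀ z ∈ O, ¬ ∀ g ∈ (P : Subgroup G), φ g z = z := by
        intro z hz hfix
        obtain ⟨-, k, hk, rfl⟩ := Finset.mem_filter.1 hz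
        rw [fix_iff_le_psi hP, psi_smul hk, cj_inv_le] at hfix
        refine hf ⟨k⁻¹ • P, ?_⟩
        rwa [Sylow.coe_subgroup_smul]
      have hs : aslack p φ (P : Subgroup G) O = (O.card : ℤ) * ((p : ℤ) - 1) := by
        rw [aslack, Finset.sum_congr rfl (g := fun _ => ((p : ℤ) - 1))
          (fun z h => by simp [wt, if_neg (hz z h)]), Finset.sum_const, nsmul_eq_mul]
      have hOp : p ≤ O.card := prime_le_card_invar hK hO (orb_self hy) (hnf y hy)
      have hge : (p : ℤ) * ((p : ℤ) - 1) ≤ aslack p φ (P : Subgroup G) O := by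
        rw [hs]; exact mul_le_mul_of_nonneg_right (by exact_mod_cast hOp) (by linarith)
      have : (0 : ℤ) ≤ (p : ℤ) * ((p : ℤ) - 1) := mul_nonneg (by linarith) (by linarith)
      refine ⟨by linarith, fun hg => absurd (hg y hy) hf, fun _ => by linarith⟩
  obtain ⟨h0, hg, hb⟩ := main hnf
  refine ⟨h0, fun j hj T hT hTj => ?_⟩
  rcases T.eq_empty_or_nonempty with rfl | hne
  · exact ⟨P, hP, fun y hy => absurd hy (Finset.notMem_empty y)⟩
  have hj1 : (1 : ℤ) ≤ j := by exact_mod_cast le_trans hne.card_pos hTj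
  have hG' : Good' Y := by
    by_contra h
    have := hb h
    nlinarith
  have hI : Good p K (Y.image (psi p φ K)) := by
    constructor
    · intro L hL
      obtain ⟨z, hz, rfl⟩ := Finset.mem_image.1 hL
      exact ⟨psi_lt hK (hnf z hz), pcl_pcl _, hG' z hz⟩
    · intro k hk L hL
      obtain ⟨z, hz, rfl⟩ := Finset.mem_image.1 hL
      exact Finset.mem_image.2 ⟨φ k z, hY k hk z hz, psi_smul hk z⟩
  obtain ⟨Q, hQ, hQT⟩ := (hM _ hI P hP).2 j (lt_of_le_of_lt (hg hG') hj) (T.image (psi p φ K))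
    (Finset.image_subset_image hT) (Finset.card_image_le.trans hTj)
  exact ⟨Q, hQ, fun y hy => (fix_iff_le_psi hQ y).2 (hQT _ (Finset.mem_image_of_mem _ hy))⟩

end Cfsg.Agent.Lib.SylowFix
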