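import Mathlib
import Cfsg.Agent.Lib.SylowFix.Act

/-!
The Sylow fixed-point bound `(2p-1) F ≤ (p-1) n`.
-/

set_option autoImplicit false

namespace Cfsg.Agent.Lib.SylowFix

open Subgroup Function Finset

open scoped Classical

variable {G : Type*} [Group G] {p : ℕ} [Finite G] [hp : Fact p.Prime]

theorem wt_of (p : ℕ) {P : Prop} (h : P) : wt p P = -(p : ℤ) := by
  unfold wt; rw [if_pos h]; ring

theorem slack_eq (P : Subgroup G) (S : Finset (Subgroup G)) :
    slack p P S = (S.card : ℤ) * ((p : ℤ) - 1) -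
      ((S.filter fun L => P ≤ L).card : ℤ) * (2 * (p : ℤ) - 1) := by
  unfold slack wt
  rw [Finset.sum_sub_distrib, Finset.sum_const, ← Finset.sum_filter, Finset.sum_const,
    nsmul_eq_mul, nsmul_eq_mul]

omit [Finite G] hp in
theorem not_le_all {K M : Subgroup G} (hK : pcl p K = K) (hM : M < K) :
    ¬ ∀ x ∈ K, IsPEl p x → x ∈ M := fun h => hM.not_ge (hK ▸ pcl_le_of_forall h)

/-- Members of a good family contain a Sylow subgroup iff they are normalised by it. -/
theorem aslack_cj {P : Sylow p G} {S : Finset (Subgroup G)} (hS : ∀ L ∈ S, Full p L) :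
    aslack p cj (P : Subgroup G) S = slack p (P : Subgroup G) S :=
  Finset.sum_congr rfl fun L hL => congrArg (wt p) (propext
    ⟨fun h => sylow_le_of_norm (hS L hL) fun g hg => cj_eq_iff_norm.1 (h g hg),
      fun h _ hg => cj_eq_iff_norm.2 (le_normalizer (h hg))⟩)

theorem nofix_of_not_le {L M : Subgroup G} (hL : pcl p L = L) (hM : Full p M) (h : ¬ L ≤ M) :
    ∃ k ∈ L, cj k M ≠ M := by
  by_contra hc
  push Not at hc
  exact h (le_of_norm hL hM fun k hk => cj_eq_iff_norm.1 (hc k hk))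

/-- Passing to the stabiliser `L`: the other members have slack `slack + p`, and are covered. -/
theorem step {K : Subgroup G} (IH : ∀ L < K, pcl p L = L → MStmt p L) {S : Finset (Subgroup G)}
    (hS : Good p K S) {L : Subgroup G} (hL : L ∈ S) (hmax : ∀ M ∈ S, L ≤ M → L = M)
    (P : Sylow p G) (hP : (P : Subgroup G) ≤ L) :
    -(p : ℤ) ≤ slack p (P : Subgroup G) S ∧
    ∀ j : ℕ, slack p (P : Subgroup G) S + p < (p : ℤ) * ((p : ℤ) - j) →
      ∀ T : Finset (Subgroup G), T ⊆ S.erase L → T.card ≤ j →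
        ∃ Q : Sylow p G, (Q : Subgroup G) ≤ L ∧ ∀ M ∈ T, (Q : Subgroup G) ≤ M := by
  obtain ⟨hLK, hLp, -⟩ := hS.1 L hL
  have hY : ∀ k ∈ L, ∀ M ∈ S.erase L, cj k M ∈ S.erase L := by
    intro k hk M hM
    refine Finset.mem_erase.2 ⟨fun e => (Finset.mem_erase.1 hM).1 ?_,
      hS.2 k (hLK.le hk) M (Finset.mem_erase.1 hM).2⟩
    exact (cj k).injective (e.trans (cj_eq_iff_norm.2 (le_normalizer hk)).symm)
  have hnf : ∀ M ∈ S.erase L, ∃ k ∈ L, cj k M ≠ M := fun M hM =>
    nofix_of_not_le hLp (hS.1 M (Finset.mem_erase.1 hM).2).2.2 fun hle =>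
      (Finset.mem_erase.1 hM).1 (hmax M (Finset.mem_erase.1 hM).2 hle).symm
  obtain ⟨h0, hcov⟩ := act (φ := cj) (IH L hLK hLp) hLp P hP hY hnf
  have hs : aslack p cj (P : Subgroup G) (S.erase L) = slack p (P : Subgroup G) S + p := by
    rw [aslack_cj fun M hM => (hS.1 M (Finset.mem_erase.1 hM).2).2.2]
    unfold slack
    rw [← Finset.sum_erase_add S _ hL, wt_of p hP]
    ring
  rw [hs] at h0 hcov
  refine ⟨by linarith, fun j hj T hT hTj => ?_⟩
  obtain ⟨Q, hQ, hQT⟩ := hcov j hj T hT hTj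
  exact ⟨Q, hQ, fun M hM => sylow_le_of_norm (hS.1 M (Finset.mem_erase.1 (hT hM)).2).2.2
    fun g hg => cj_eq_iff_norm.1 (hQT M hM g hg)⟩

theorem good_orb {K : Subgroup G} {S : Finset (Subgroup G)} (hS : Good p K S) (L : Subgroup G) :
    Good p K (orb cj K S L) :=
  ⟨fun M hM => hS.1 M (Finset.mem_filter.1 hM).1, orb_invar hS.2 L⟩

theorem card_eq_of_mem_orb {K : Subgroup G} {S : Finset (Subgroup G)} {L M : Subgroup G}
    (hM : M ∈ orb cj K S L) : Nat.card ↥M = Nat.card ↥L := by
  obtain ⟨-, k, -, rfl⟩ := Finset.mem_filter.1 hM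
  exact card_cj k L

theorem eq_of_le_orb {K : Subgroup G} {S : Finset (Subgroup G)} {L M N : Subgroup G}
    (hM : M ∈ orb cj K S L) (hN : N ∈ orb cj K S L) (h : M ≤ N) : M = N :=
  Subgroup.eq_of_le_of_card_ge h (by rw [card_eq_of_mem_orb hM, card_eq_of_mem_orb hN])

/-- Positivity on one orbit. -/
theorem orb_nonneg {K : Subgroup G} (hK : pcl p K = K) (IH : ∀ L < K, pcl p L = L → MStmt p L)
    {S : Finset (Subgroup G)} (hS : Good p K S) (P : Sylow p G) (L₀ : Subgroup G) :
    0 ≤ slack p (P : Subgroup G) (orb cj K S L₀) := by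
  have h2 : (2 : ℤ) ≤ p := by exact_mod_cast hp.out.two_le
  set O := orb cj K S L₀ with hOdef
  have hO : Good p K O := good_orb hS L₀
  by_cases hex : ∃ L ∈ O, (P : Subgroup G) ≤ L
  swap
  · push Not at hex
    exact Finset.sum_nonneg fun L hL => by simp only [wt, if_neg (hex L hL)]; linarith
  obtain ⟨L, hL, hPL⟩ := hex
  by_contra hneg
  push Not at hneg
  have hj : slack p (P : Subgroup G) O + p < (p : ℤ) * ((p : ℤ) - ((p - 1 : ℕ) : ℤ)) := by
    rw [Nat.cast_sub hp.out.one_lt.le]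
    push_cast
    nlinarith
  have hcov := (step IH hO hL (fun M hM h => eq_of_le_orb hL hM h) P hPL).2 (p - 1) hj
  -- every set of at most `p` members containing `L` is covered; move it around
  obtain ⟨hLK, hLp, hLF⟩ := hO.1 L hL
  obtain ⟨x, hx, hxp, hxL⟩ : ∃ x ∈ K, IsPEl p x ∧ x ∉ L := by
    simpa using not_le_all hK hLK
  have hne : cj x L ≠ L := fun e => hxL (mem_of_norm hLF hxp (cj_eq_iff_norm.1 e))
  obtain ⟨k, hk⟩ := hxp
  have hex2 : ∃ i, cj (x ^ (p ^ i)) L = L := ⟨k, by rw [hk, map_one, Equiv.Perm.one_apply]⟩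
  have hi0 : Nat.find hex2 ≠ 0 := fun e => hne (by
    have h0 := Nat.find_spec hex2
    rwa [e, pow_zero, pow_one] at h0)
  obtain ⟨i, hi⟩ := Nat.exists_eq_succ_of_ne_zero hi0
  set y := x ^ (p ^ i) with hy
  have hyp : IsPEl p y := IsPEl.pow ⟨k, hk⟩ _
  have hyK : y ∈ K := pow_mem hx _
  have hy1 : cj y L ≠ L := Nat.find_min hex2 (by omega)
  have hyl : cj (y ^ p) L = L := by
    rw [hy, ← pow_mul, ← pow_succ]
    rw [← Nat.succ_eq_add_one, ← hi]
    exact Nat.find_spec hex2
  set T := (Finset.range p).image fun n => cj (y ^ n) L with hT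
  have hTO : T ⊆ O := Finset.image_subset_iff.2 fun n _ => hO.2 _ (pow_mem hyK n) L hL
  have hLT : L ∈ T := Finset.mem_image.2 ⟨0, Finset.mem_range.2 hp.out.pos, by simp⟩
  obtain ⟨Q, hQL, hQT⟩ := hcov (T.erase L) (Finset.erase_subset_erase _ hTO) (by
    rw [Finset.card_erase_of_mem hLT]
    exact Nat.sub_le_sub_right (Finset.card_image_le.trans (Finset.card_range p).le) 1)
  set D : Subgroup G := T.inf id with hD
  have hQD : (Q : Subgroup G) ≤ D := Finset.le_inf fun M hM => by
    rcases eq_or_ne M L with rfl | h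
    · exact hQL
    · exact hQT M (Finset.mem_erase.2 ⟨h, hM⟩)
  have hstab : ∀ M ∈ T, cj y M ∈ T := by
    intro M hM
    obtain ⟨n, hn, rfl⟩ := Finset.mem_image.1 hM
    rw [← Equiv.Perm.mul_apply, ← map_mul, ← pow_succ']
    by_cases h : n + 1 = p
    · rw [h, hyl]; exact hLT
    · exact Finset.mem_image.2 ⟨n + 1, Finset.mem_range.2 (by
        have := Finset.mem_range.1 hn; omega), rfl⟩
  have hDn : cj y D = D := by
    have hTim : T.image (fun M => cj y M) = T := Finset.eq_of_subset_of_card_le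
      (Finset.image_subset_iff.2 hstab) (by rw [Finset.card_image_of_injective _ (cj y).injective])
    refine Subgroup.eq_of_le_of_card_ge ?_ (card_cj y D).ge
    refine Finset.le_inf fun M hM => ?_
    obtain ⟨N, hN, rfl⟩ := Finset.mem_image.1 (hTim.symm ▸ hM)
    exact cj_mono (Finset.inf_le hN)
  have hyD : y ∈ D := mem_of_norm ⟨Q, hQD⟩ hyp (cj_eq_iff_norm.1 hDn)
  exact hy1 (cj_eq_iff_norm.2 (le_normalizer ((Finset.inf_le (f := id) hLT : D ≤ L) hyD)))

/-- The main induction. -/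
theorem mStmt (K : Subgroup G) (hK : pcl p K = K) : MStmt p K := by
  induction hn : Nat.card ↥K using Nat.strong_induction_on generalizing K with
  | _ n ih =>
  have IH : ∀ L < K, pcl p L = L → MStmt p L := by
    intro L hL hLp
    refine ih (Nat.card ↥L) ?_ L hLp rfl
    rw [← hn]
    exact lt_of_not_ge fun h => hL.ne (Subgroup.eq_of_le_of_card_ge hL.le h)
  intro S hS P hP
  have h2 : (2 : ℤ) ≤ p := by exact_mod_cast hp.out.two_le
  have nonneg : ∀ S', Good p K S' → ∀ P' : Sylow p G, 0 ≤ slack p (P' : Subgroup G) S' := by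
    intro S' hS' P'
    refine orbit_induction (cj (G := G)) K
      (motive := fun Y => (∀ L ∈ Y, L ∈ S') → 0 ≤ slack p (P' : Subgroup G) Y) ?_ ?_ hS'.2
      fun _ h => h
    · intro _; simp [slack]
    · intro Y hY L hL hrec hsub
      have hgood : Good p K Y := ⟨fun M hM => hS'.1 M (hsub M hM), hY⟩
      have := orb_nonneg hK IH hgood P' L
      have e : slack p (P' : Subgroup G) Y = slack p (P' : Subgroup G) (Y \ orb cj K Y L) +
          slack p (P' : Subgroup G) (orb cj K Y L) :=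
        (Finset.sum_sdiff (Finset.filter_subset _ _)).symm
      linarith [hrec fun M hM => hsub M (Finset.mem_sdiff.1 hM).1]
  refine ⟨nonneg S hS P, fun j hj T hTS hTj => ?_⟩
  rcases T.eq_empty_or_nonempty with rfl | ⟨A, hA⟩
  · exact ⟨P, hP, fun y hy => absurd hy (Finset.notMem_empty y)⟩
  have hj1 : 1 ≤ j := le_trans (Finset.card_pos.2 ⟨A, hA⟩) hTj
  have hsmall : slack p (P : Subgroup G) S < (p : ℤ) * ((p : ℤ) - 1) := by
    have : (1 : ℤ) ≤ j := by exact_mod_cast hj1
    nlinarith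
  -- small slack: no two members are comparable
  have anti : ∀ L ∈ S, ∀ M ∈ S, L ≤ M → L = M := by
    intro L hL M hM hLM
    by_contra hne
    obtain ⟨hMK, hMp, hMF⟩ := hS.1 M hM
    obtain ⟨hLK, hLp, hLF⟩ := hS.1 L hL
    set O := orb cj K S L with hOdef
    set O' := orb cj K S M with hO'def
    have hlt : ∀ A ∈ O, ∀ B ∈ O', ¬ B ≤ A := by
      intro A hA B hB hBA
      have h1 : Nat.card ↥L < Nat.card ↥M :=
        lt_of_not_ge fun h => hne (Subgroup.eq_of_le_of_card_ge hLM h)
      have h2 := Subgroup.card_le_of_le hBA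
      rw [card_eq_of_mem_orb hA, card_eq_of_mem_orb hB] at h2
      omega
    obtain ⟨R, hR⟩ := hLF
    have hRK : (R : Subgroup G) ≤ K := hR.trans hLK.le
    rw [slack_congr hS.2 hP hRK] at hsmall
    have hOsmall : slack p (R : Subgroup G) O < (p : ℤ) * ((p : ℤ) - 1) := by
      have hgood : Good p K (S \ O) :=
        ⟨fun A hA => hS.1 A (Finset.mem_sdiff.1 hA).1, sdiff_invar hS.2 (orb_invar hS.2 L)⟩
      have e : slack p (R : Subgroup G) S = slack p (R : Subgroup G) (S \ O) +
          slack p (R : Subgroup G) O := (Finset.sum_sdiff (Finset.filter_subset _ _)).symm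
      linarith [nonneg _ hgood R]
    -- the members below `M`
    set Φ := fun B : Subgroup G => O.filter fun A => A ≤ B with hΦ
    have hΦinv : ∀ B ∈ O', ∀ k ∈ B, ∀ A ∈ Φ B, cj k A ∈ Φ B := by
      intro B hB k hk A hA
      obtain ⟨hA, hAB⟩ := Finset.mem_filter.1 hA
      refine Finset.mem_filter.2 ⟨orb_invar hS.2 L k ((hS.1 B (Finset.mem_filter.1 hB).1).1.le hk)
        A hA, ?_⟩
      rw [← cj_eq_iff_norm.2 (le_normalizer hk)]
      exact cj_mono hAB
    have hnfO : ∀ B ∈ O', ∀ A ∈ O, ∃ k ∈ B, cj k A ≠ A := fun B hB A hA =>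
      nofix_of_not_le (hS.1 B (Finset.mem_filter.1 hB).1).2.1
        (hS.1 A (Finset.mem_filter.1 hA).1).2.2 (hlt A hA B hB)
    have hMO' : M ∈ O' := orb_self hM
    have hLO : L ∈ O := orb_self hL
    have hn2 : 2 * p ≤ O.card := by
      have h1 : p ≤ (Φ M).card := prime_le_card_invar hMp (hΦinv M hMO')
        (y := L) (Finset.mem_filter.2 ⟨hLO, hLM⟩) (hnfO M hMO' L hLO)
      obtain ⟨A, hA, hAM⟩ : ∃ A ∈ O, ¬ A ≤ M := by
        by_contra hc
        push Not at hc
        refine not_le_all hK hMK fun x hx hxp => ?_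
        obtain ⟨k, hk, hxk⟩ := exists_sylow_of_pEl hRK hx hxp
        exact hc (cj k L) (orb_invar hS.2 L k hk L hLO) (cj_mono hR hxk)
      have h2 : p ≤ (O \ Φ M).card := prime_le_card_invar hMp
        (sdiff_invar (fun k hk A hA => orb_invar hS.2 L k (hMK.le hk) A hA) (hΦinv M hMO'))
        (y := A) (Finset.mem_sdiff.2 ⟨hA, fun h => hAM (Finset.mem_filter.1 h).2⟩)
        (hnfO M hMO' A hA)
      have h3 := Finset.card_sdiff_add_card_eq_card (Finset.filter_subset (fun A => A ≤ M) O)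
      simp only [hΦ] at h1 h2
      omega
    -- double counting
    set b := (Φ M).card with hb
    set a := (O'.filter fun B => L ≤ B).card with ha
    have hbB : ∀ B ∈ O', (Φ B).card = b := by
      intro B hB
      obtain ⟨-, k, hk, rfl⟩ := Finset.mem_filter.1 hB
      refine (Finset.card_bij' (fun A _ => cj k A) (fun A _ => cj k⁻¹ A) (fun A hA => ?_)
        (fun A hA => ?_) (fun A _ => by simp) (fun A _ => by simp)).symm
      · obtain ⟨hA, hAB⟩ := Finset.mem_filter.1 hA
        exact Finset.mem_filter.2 ⟨orb_invar hS.2 L k hk A hA, cj_mono hAB⟩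
      · obtain ⟨hA, hAB⟩ := Finset.mem_filter.1 hA
        exact Finset.mem_filter.2 ⟨orb_invar hS.2 L k⁻¹ (inv_mem hk) A hA, cj_inv_le.1 hAB⟩
    have haA : ∀ A ∈ O, (O'.filter fun B => A ≤ B).card = a := by
      intro A hA
      obtain ⟨-, k, hk, rfl⟩ := Finset.mem_filter.1 hA
      refine (Finset.card_bij' (fun B _ => cj k B) (fun B _ => cj k⁻¹ B) (fun B hB => ?_)
        (fun B hB => ?_) (fun B _ => by simp) (fun B _ => by simp)).symm
      · obtain ⟨hB, hAB⟩ := Finset.mem_filter.1 hB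
        exact Finset.mem_filter.2 ⟨orb_invar hS.2 M k hk B hB, cj_mono hAB⟩
      · obtain ⟨hB, hAB⟩ := Finset.mem_filter.1 hB
        refine Finset.mem_filter.2 ⟨orb_invar hS.2 M k⁻¹ (inv_mem hk) B hB, ?_⟩
        simpa using cj_mono (g := k⁻¹) hAB
    have ha1 : 1 ≤ a := Finset.card_pos.2 ⟨M, Finset.mem_filter.2 ⟨hMO', hLM⟩⟩
    set OR := O.filter fun A => (R : Subgroup G) ≤ A with hOR
    set OR' := O'.filter fun B => (R : Subgroup G) ≤ B with hOR'
    have hcount : O.card * a = O'.card * b := by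
      have := Finset.sum_card_bipartiteAbove_eq_sum_card_bipartiteBelow
        (s := O) (t := O') (r := fun A B => A ≤ B)
      simp only [Finset.bipartiteAbove, Finset.bipartiteBelow] at this
      rwa [Finset.sum_congr rfl haA, Finset.sum_congr rfl hbB, Finset.sum_const, Finset.sum_const,
        smul_eq_mul, smul_eq_mul] at this
    have hcountR : OR.card * a = ∑ B ∈ OR', ((Φ B).filter fun A => (R : Subgroup G) ≤ A).card := by
      have := Finset.sum_card_bipartiteAbove_eq_sum_card_bipartiteBelow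
        (s := OR) (t := O') (r := fun A B => A ≤ B)
      simp only [Finset.bipartiteAbove, Finset.bipartiteBelow] at this
      rw [Finset.sum_congr rfl (fun A hA => haA A (Finset.mem_filter.1 hA).1), Finset.sum_const,
        smul_eq_mul] at this
      rw [this, hOR', Finset.sum_filter]
      refine Finset.sum_congr rfl fun B hB => ?_
      by_cases hRB : (R : Subgroup G) ≤ B
      · rw [if_pos hRB]
        simp only [hOR, hΦ, Finset.filter_filter]
        congr 1
        exact Finset.filter_congr fun A _ => and_comm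
      · rw [if_neg hRB, Finset.card_eq_zero, Finset.filter_eq_empty_iff]
        exact fun A hA hAB => hRB ((Finset.mem_filter.1 hA).2.trans hAB)
    have hfib : ∀ B ∈ OR', (2 * (p : ℤ) - 1) *
        (((Φ B).filter fun A => (R : Subgroup G) ≤ A).card : ℤ) ≤ ((p : ℤ) - 1) * b := by
      intro B hB
      obtain ⟨hB, hRB⟩ := Finset.mem_filter.1 hB
      have hfull : ∀ A ∈ Φ B, Full p A := fun A hA =>
        (hS.1 A (Finset.mem_filter.1 (Finset.mem_filter.1 hA).1).1).2.2
      have := (act (φ := cj) (IH B (hS.1 B (Finset.mem_filter.1 hB).1).1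
        (hS.1 B (Finset.mem_filter.1 hB).1).2.1) (hS.1 B (Finset.mem_filter.1 hB).1).2.1 R hRB
        (hΦinv B hB) (fun A hA => hnfO B hB A (Finset.mem_filter.1 hA).1)).1
      rw [aslack_cj hfull, slack_eq, hbB B hB] at this
      linarith
    have hfO' : (2 * (p : ℤ) - 1) * (OR'.card : ℤ) ≤ ((p : ℤ) - 1) * O'.card := by
      have := nonneg _ (good_orb hS M) R
      rw [slack_eq] at this
      linarith
    have hF : (2 * (p : ℤ) - 1) * ((OR.card : ℤ) * a) ≤ ((p : ℤ) - 1) * b * OR'.card := by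
      have e : ((OR.card : ℤ) * a) =
          ∑ B ∈ OR', (((Φ B).filter fun A => (R : Subgroup G) ≤ A).card : ℤ) := by
        exact_mod_cast hcountR
      rw [e, Finset.mul_sum]
      refine (Finset.sum_le_sum hfib).trans (le_of_eq ?_)
      rw [Finset.sum_const, nsmul_eq_mul]
      ring
    have hFn : (2 * (p : ℤ) - 1) ^ 2 * OR.card ≤ ((p : ℤ) - 1) ^ 2 * O.card := by
      have hc : (O.card : ℤ) * a = (O'.card : ℤ) * b := by exact_mod_cast hcount
      have hapos : (0 : ℤ) < a := by exact_mod_cast ha1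
      refine le_of_mul_le_mul_right ?_ hapos
      have s1 : (2 * (p : ℤ) - 1) * ((2 * (p : ℤ) - 1) * ((OR.card : ℤ) * a)) ≤
          (2 * (p : ℤ) - 1) * (((p : ℤ) - 1) * b * OR'.card) :=
        mul_le_mul_of_nonneg_left hF (by linarith)
      have s2 : ((p : ℤ) - 1) * b * ((2 * (p : ℤ) - 1) * OR'.card) ≤
          ((p : ℤ) - 1) * b * (((p : ℤ) - 1) * O'.card) :=
        mul_le_mul_of_nonneg_left hfO' (mul_nonneg (by linarith) (Nat.cast_nonneg _))
      calc (2 * (p : ℤ) - 1) ^ 2 * OR.card * a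
          = (2 * (p : ℤ) - 1) * ((2 * (p : ℤ) - 1) * ((OR.card : ℤ) * a)) := by ring
        _ ≤ (2 * (p : ℤ) - 1) * (((p : ℤ) - 1) * b * OR'.card) := s1
        _ = ((p : ℤ) - 1) * b * ((2 * (p : ℤ) - 1) * OR'.card) := by ring
        _ ≤ ((p : ℤ) - 1) * b * (((p : ℤ) - 1) * O'.card) := s2
        _ = ((p : ℤ) - 1) ^ 2 * ((O'.card : ℤ) * b) := by ring
        _ = ((p : ℤ) - 1) ^ 2 * O.card * a := by rw [← hc]; ring
    rw [slack_eq] at hOsmall
    have hn : 2 * (p : ℤ) ≤ O.card := by exact_mod_cast hn2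
    have hmul : ((p : ℤ) - 1) * p * (2 * p - 1) ≤ ((p : ℤ) - 1) * p * O.card :=
      mul_le_mul_of_nonneg_left (by linarith) (mul_nonneg (by linarith) (by linarith))
    nlinarith
  -- the covering
  obtain ⟨hAK, hAp, R, hR⟩ := hS.1 A (hTS hA)
  have hRK : (R : Subgroup G) ≤ K := hR.trans hAK.le
  rw [slack_congr hS.2 hP hRK] at hj
  have hj' : slack p (R : Subgroup G) S + p < (p : ℤ) * ((p : ℤ) - ((j - 1 : ℕ) : ℤ)) := by
    rw [Nat.cast_sub hj1]
    push_cast
    nlinarith
  obtain ⟨Q, hQA, hQT⟩ := (step IH hS (hTS hA) (anti A (hTS hA)) R hR).2 (j - 1) hj' (T.erase A)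
    (Finset.erase_subset_erase _ hTS) (by rw [Finset.card_erase_of_mem hA]; omega)
  refine ⟨Q, hQA.trans hAK.le, fun L hL => ?_⟩
  rcases eq_or_ne L A with rfl | h
  · exact hQA
  · exact hQT L (Finset.mem_erase.2 ⟨h, hL⟩)

/-- The fixed-point bound for actions without fixed points. -/
theorem fixed_le {X : Type*} [MulAction G X] [Finite X] (K : Subgroup G) (hK : pcl p K = K)
    (P : Sylow p G) (hP : (P : Subgroup G) ≤ K) (hnf : ∀ y : X, ∃ k ∈ K, k • y ≠ y) :
    (2 * p - 1) * Nat.card {y : X // ∀ g ∈ (P : Subgroup G), g • y = y} ≤ (p - 1) * Nat.card X := by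
  haveI := Fintype.ofFinite X
  have h := (act (φ := MulAction.toPermHom G X) (mStmt K hK) hK P hP
    (Y := Finset.univ) (fun _ _ _ _ => Finset.mem_univ _) (fun y _ => hnf y)).1
  unfold aslack wt at h
  rw [Finset.sum_sub_distrib, Finset.sum_const, ← Finset.sum_filter, Finset.sum_const,
    nsmul_eq_mul, nsmul_eq_mul] at h
  simp only [MulAction.toPermHom_apply, MulAction.toPerm_apply] at h
  rw [Nat.card_eq_fintype_card, Nat.card_eq_fintype_card, Fintype.card_subtype]
  have h1 : 1 ≤ 2 * p := by have := hp.out.two_le; omega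
  zify [h1, hp.out.one_lt.le]
  rw [Finset.card_univ] at h
  linarith

end Cfsg.Agent.Lib.SylowFix
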